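import Cfsg.Agent.H231.QF.Defs
import Cfsg.Agent.H990.TC.Univ
import Cfsg.Agent.LieClassical.HermPerfect
import Cfsg.Agent.S0279
import Cfsg.Agent.S2091

/-!
# S2491, row F4: matching of two perfect central extensions of `PSU₆(2)` (helper434)

* `exists_over` : two perfect central extensions of the same group, of coprime type: the first one maps onto the second one
* `match_abs`, `match3` : the commutators of `SU₆(2)` give the commutators of the preimage of the parabolic subgroup `P₁` of `²E₆(2)`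
  modulo the 2-part of the preimage of its unipotent radical
-/

set_option autoImplicit false

namespace Cfsg.Agent.H434.QF

open Subgroup Cfsg.Agent.H51.Mult Cfsg.Agent.H68.Bounds Cfsg.Agent.Nodes.RGDLift

universe u v w u'

section univ

variable {S : Type u} {E : Type w} {Y : Type v} [Group S] [Group E] [Group Y] [Finite S] [Finite E]

/-- a perfect central extension maps onto another one if the kernel of a cover is too small -/
theorem exists_over {σ : S →* Y} (hσ : PCE σ) {ρ : E →* Y} (hρ : PCE ρ) {A : Type u'} [CommGroup A]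
    (hA : Cfsg.HasSchurMultiplier Y A) {m k : ℕ} (hm : Nat.card A = Nat.card σ.ker * m) (hmk : Nat.Coprime m k)
    (hk : ∀ x : E, ρ x = 1 → x ^ k = 1) : ∃ θ : S →* E, Function.Surjective θ ∧ ∀ x, ρ (θ x) = σ x := by
  obtain ⟨D, _, f, g, hf, hg, hfg, hD, hDf⟩ := exists_common hσ hρ
  have hfin : Finite D := hDf inferInstance inferInstance
  have h1 := Cfsg.Agent.H990.TC.card_ker_dvd hA hD
  rw [card_ker_comp hf.surj, hm] at h1
  have h2 : Nat.card f.ker ∣ m := Nat.dvd_of_mul_dvd_mul_left Nat.card_pos h1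
  have h3 : f.ker ≤ g.ker := by
    intro x hx
    rw [MonoidHom.mem_ker]
    have h4 : ρ (g x) = 1 := by
      have h5 : ρ (g x) = σ (f x) := (DFunLike.congr_fun hfg x).symm
      rw [h5, MonoidHom.mem_ker.1 hx, map_one]
    have h5 : (g x) ^ k = 1 := hk _ h4
    have h6 : (g x) ^ m = 1 := by
      obtain ⟨c, hc⟩ := h2
      have h7 : (⟨x, hx⟩ : f.ker) ^ Nat.card f.ker = 1 := pow_card_eq_one'
      have h8 : x ^ Nat.card f.ker = 1 := congrArg Subtype.val h7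
      rw [← map_pow, hc, pow_mul, h8, one_pow, map_one]
    rw [← orderOf_eq_one_iff, ← Nat.dvd_one, ← hmk.gcd_eq_one]
    exact Nat.dvd_gcd (orderOf_dvd_of_pow_eq_one h6) (orderOf_dvd_of_pow_eq_one h5)
  let θ : S →* E := f.liftOfSurjective hf.surj ⟨g, h3⟩
  have hθ : ∀ x, θ (f x) = g x := fun x =>
    MonoidHom.liftOfRightInverse_comp_apply f _ (Function.rightInverse_surjInv hf.surj) ⟨g, h3⟩ x
  refine ⟨θ, ?_, ?_⟩
  · intro y
    obtain ⟨d, rfl⟩ := hg.surj y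
    exact ⟨f d, hθ d⟩
  · intro x
    obtain ⟨d, rfl⟩ := hf.surj x
    rw [hθ]
    exact (DFunLike.congr_fun hfg d).symm

end univ

theorem comm_mul {G : Type*} [Group G] {x y z w : G} (hz : ∀ g, z * g = g * z) (hw : ∀ g, w * g = g * w) :
    (x * z) * (y * w) * (x * z)⁻¹ * (y * w)⁻¹ = x * y * x⁻¹ * y⁻¹ := by
  calc (x * z) * (y * w) * (x * z)⁻¹ * (y * w)⁻¹ = x * (z * (y * w)) * z⁻¹ * x⁻¹ * w⁻¹ * y⁻¹ := by group
    _ = x * y * (w * x⁻¹) * w⁻¹ * y⁻¹ := by rw [hz]; group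
    _ = x * y * x⁻¹ * y⁻¹ := by rw [hw]; group

section main

variable {Y : Type u} [Group Y] {L : Type v} [Group L] [Finite L] {π : L →* Y}

/-- the decomposition -/
theorem dec (hπ : PCE π) (hk : Nat.card π.ker = 12) {V : Subgroup Y} (hV : IsPGroup 2 V) {x : L} (hx : π x ∈ V) :
    ∃ y ∈ lft 2 π V, ∃ z : L, π z = 1 ∧ z ^ 3 = 1 ∧ x = y * z := by
  have := Fact.mk Nat.prime_two
  obtain ⟨k, hk1⟩ := hV ⟨π x, hx⟩
  have hk2 : (π x) ^ 2 ^ k = 1 := congrArg Subtype.val hk1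
  have hk3 : (x ^ 2 ^ k) ^ 12 = 1 := by
    have h1 : (⟨x ^ 2 ^ k, by rw [MonoidHom.mem_ker, map_pow, hk2]⟩ : π.ker) ^ Nat.card π.ker = 1 := pow_card_eq_one'
    rw [hk] at h1
    exact congrArg Subtype.val h1
  set n := 2 ^ k * 4 with hn
  have h3n : x ^ (3 * n) = 1 := by
    rw [← hk3, ← pow_mul]
    congr 1
    rw [hn]; ring
  obtain ⟨t, ht⟩ : ∃ t, n ^ 2 = 3 * t + 1 := by
    have h1 : n ^ 2 % 3 = 1 := by
      rw [hn, mul_pow, ← pow_mul, Nat.mul_comm k 2, pow_mul, Nat.mul_mod, Nat.pow_mod]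
      norm_num
    exact ⟨n ^ 2 / 3, by omega⟩
  have hπn : (π x) ^ n = 1 := by rw [hn, pow_mul, hk2, one_pow]
  have hzn : (x ^ n ^ 2) ^ n = x ^ n := by
    calc (x ^ n ^ 2) ^ n = x ^ (3 * n * t + n) := by rw [← pow_mul, ht]; congr 1; ring
      _ = x ^ n := by rw [pow_add, pow_mul, h3n, one_pow, one_mul]
  refine ⟨x * (x ^ n ^ 2)⁻¹, ?_, x ^ n ^ 2, ?_, ?_, by rw [inv_mul_cancel_right]⟩
  · have h1 : π (x ^ n ^ 2) = 1 := by rw [map_pow, pow_two, pow_mul, hπn, one_pow]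
    rw [mem_lft hπ.cen hV]
    refine ⟨by rw [map_mul, map_inv, h1, inv_one, mul_one]; exact hx, k + 2, ?_⟩
    have h2 : Commute x (x ^ n ^ 2)⁻¹ := ((Commute.refl x).pow_right _).inv_right
    have h3 : 2 ^ (k + 2) = n := by rw [hn, pow_add]; norm_num
    rw [h3, h2.mul_pow, inv_pow, hzn, mul_inv_cancel]
  · rw [map_pow, pow_two, pow_mul, hπn, one_pow]
  · calc (x ^ n ^ 2) ^ 3 = (x ^ (3 * n)) ^ n := by rw [← pow_mul, ← pow_mul]; congr 1; ring
      _ = 1 := by rw [h3n, one_pow]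

/-- **Matching.** -/
theorem match_abs (hπ : PCE π) (hk : Nat.card π.ker = 12) {P V M : Subgroup Y} (hVP : V ≤ P) (hMP : M ≤ P)
    (hN : P ≤ normalizer (V : Set Y)) (hdec : ∀ g ∈ P, ∃ l ∈ M, ∃ v ∈ V, g = l * v) (hdis : ∀ x ∈ M, x ∈ V → x = 1)
    (hV : IsPGroup 2 V) (hperf : P ≤ ⁅P, P⁆)
    (hz3 : ∀ z : L, π z = 1 → z ^ 3 = 1 → z ∈ ⁅P.comap π, P.comap π⁆)
    {S : Type u} [Group S] [Finite S] {f : S →* Y} (hf : f.range = M) (hkf : f.ker = center S)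
    (hS : commutator S = ⊤) {A : Type u'} [CommGroup A] (hA : Cfsg.HasSchurMultiplier (S ⧸ center S) A) {m : ℕ}
    (hm : Nat.card A = Nat.card (center S) * m) (hm3 : Nat.Coprime m 3)
    (g : L) {v : Y} (hv : v ∈ V) (h : S) (hg : π g = v * f h) :
    ∃ s ∈ center S, ∀ (a b : S) (a' b' : L), h * s = a * b * a⁻¹ * b⁻¹ → π a' = f a → π b' = f b →
      g * (a' * b' * a'⁻¹ * b'⁻¹)⁻¹ ∈ lft 2 π V := by
  have := Fact.mk Nat.prime_two
  -- the quotients
  have hfP : ∀ x, f x ∈ P := fun x => hMP (by rw [← hf]; exact ⟨x, rfl⟩)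
  have hVn : (V.subgroupOf P).Normal := ⟨fun x hx y => by
    rw [mem_subgroupOf] at hx ⊢
    exact (mem_normalizer_iff.1 (hN y.2) _).1 hx⟩
  have hNn : ((lft 2 π V).subgroupOf (P.comap π)).Normal := ⟨fun x hx y => by
    rw [mem_subgroupOf, mem_lft hπ.cen hV] at hx ⊢
    obtain ⟨h1, k, h2⟩ := hx
    refine ⟨?_, k, ?_⟩
    · show π (y.1 * x.1 * y.1⁻¹) ∈ V
      rw [map_mul, map_mul, map_inv]
      exact (mem_normalizer_iff.1 (hN y.2) _).1 h1
    · show (y.1 * x.1 * y.1⁻¹) ^ 2 ^ k = 1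
      rw [conj_pow, h2, mul_one, mul_inv_cancel]⟩
  let Y0 := P ⧸ V.subgroupOf P
  let E := (P.comap π) ⧸ (lft 2 π V).subgroupOf (P.comap π)
  let fP : S →* P := f.codRestrict P hfP
  let σ0 : S →* Y0 := (QuotientGroup.mk' (V.subgroupOf P)).comp fP
  let ρ0 : E →* Y0 := QuotientGroup.map _ (V.subgroupOf P) (π.subgroupComap P) (by
    intro x hx
    rw [mem_subgroupOf, mem_lft hπ.cen hV] at hx
    exact hx.1)
  have hρ0 : ∀ x : P.comap π, ρ0 (QuotientGroup.mk' _ x) = QuotientGroup.mk' _ (⟨π x.1, x.2⟩ : P) := fun x => rfl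
  have hσs : Function.Surjective σ0 := by
    intro y
    obtain ⟨⟨y, hy⟩, rfl⟩ := QuotientGroup.mk'_surjective _ y
    obtain ⟨l, hl, v, hv, rfl⟩ := hdec y hy
    rw [← hf] at hl
    obtain ⟨x, rfl⟩ := hl
    refine ⟨x, ?_⟩
    refine (QuotientGroup.eq).2 ?_
    rw [mem_subgroupOf]
    show (f x)⁻¹ * (f x * v) ∈ V
    rw [inv_mul_cancel_left]
    exact hv
  have hσk : σ0.ker = center S := by
    rw [← hkf]
    ext x
    rw [MonoidHom.mem_ker, MonoidHom.mem_ker]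
    constructor
    · intro hx
      have h1 : fP x ∈ V.subgroupOf P := (QuotientGroup.eq_one_iff _).1 hx
      rw [mem_subgroupOf] at h1
      exact hdis (f x) (by rw [← hf]; exact ⟨x, rfl⟩) h1
    · intro hx
      refine (QuotientGroup.eq_one_iff _).2 ?_
      rw [mem_subgroupOf]
      show f x ∈ V
      rw [hx]
      exact V.one_mem
  have hσ : PCE σ0 := ⟨hσs, hσk.le, hS⟩
  -- the kernel of `ρ0`
  have hker : ∀ y : E, ρ0 y = 1 → ∃ z : L, ∃ hz : z ∈ P.comap π, π z = 1 ∧ z ^ 3 = 1 ∧ y = QuotientGroup.mk' _ (⟨z, hz⟩ : P.comap π) := by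
    intro y hy
    obtain ⟨⟨x, hx⟩, rfl⟩ := QuotientGroup.mk'_surjective _ y
    have h1 : (⟨π x, hx⟩ : P) ∈ V.subgroupOf P := (QuotientGroup.eq_one_iff _).1 hy
    rw [mem_subgroupOf] at h1
    obtain ⟨x2, hx2, z, hz, hz3', rfl⟩ := dec hπ hk hV h1
    have hzP : z ∈ P.comap π := by rw [mem_comap, hz]; exact P.one_mem
    refine ⟨z, hzP, hz, hz3', ?_⟩
    refine (QuotientGroup.eq).2 ?_
    rw [mem_subgroupOf]
    show (x2 * z)⁻¹ * z ∈ lft 2 π V
    have h2 : (x2 * z)⁻¹ * z = x2⁻¹ := by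
      have h3 := hπ.comm hz x2⁻¹
      calc (x2 * z)⁻¹ * z = z⁻¹ * (x2⁻¹ * z) := by group
        _ = x2⁻¹ := by rw [← h3]; group
    rw [h2]
    exact inv_mem hx2
  have hρc : ρ0.ker ≤ center E := by
    intro y hy
    obtain ⟨z, hz, h1, -, rfl⟩ := hker y hy
    rw [mem_center_iff]
    intro w
    obtain ⟨w, rfl⟩ := QuotientGroup.mk'_surjective _ w
    rw [← map_mul, ← map_mul]
    congr 1
    exact Subtype.ext (hπ.comm h1 w.1).symm
  have hρ : PCE ρ0 := by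
    refine ⟨?_, hρc, ?_⟩
    · intro y
      obtain ⟨⟨y, hy⟩, rfl⟩ := QuotientGroup.mk'_surjective _ y
      obtain ⟨x, rfl⟩ := hπ.surj y
      exact ⟨QuotientGroup.mk' _ ⟨x, hy⟩, rfl⟩
    · rw [eq_top_iff]
      intro y _
      obtain ⟨⟨x, hx⟩, rfl⟩ := QuotientGroup.mk'_surjective _ y
      have hmap : (⁅P.comap π, P.comap π⁆).map π = ⁅P, P⁆ := by
        rw [map_commutator, map_comap_eq_self_of_surjective hπ.surj]
      have hlift : ∀ c : L, ∀ hc : c ∈ ⁅P.comap π, P.comap π⁆, ∃ hc' : c ∈ P.comap π,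
          QuotientGroup.mk' ((lft 2 π V).subgroupOf (P.comap π)) ⟨c, hc'⟩ ∈ commutator E := by
        intro c hc
        rw [← map_subtype_commutator] at hc
        obtain ⟨c', hc', rfl⟩ := hc
        refine ⟨c'.2, ?_⟩
        have h1 : QuotientGroup.mk' ((lft 2 π V).subgroupOf (P.comap π)) c' ∈
            (commutator (P.comap π)).map (QuotientGroup.mk' _) := ⟨c', hc', rfl⟩
        rw [commutator_def, map_commutator] at h1
        exact commutator_mono le_top le_top h1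
      have h1 : π x ∈ (⁅P.comap π, P.comap π⁆).map π := by rw [hmap]; exact hperf hx
      obtain ⟨c, hc, hcx⟩ := h1
      obtain ⟨x2, hx2, z, hz, hz3', hw⟩ := dec hπ hk hV (x := c⁻¹ * x) (by
        rw [map_mul, map_inv, hcx, inv_mul_cancel]; exact V.one_mem)
      obtain ⟨hc', hc2⟩ := hlift c hc
      obtain ⟨hz', hz2⟩ := hlift z (hz3 z hz hz3')
      have h2 : QuotientGroup.mk' ((lft 2 π V).subgroupOf (P.comap π)) ⟨x, hx⟩ =
          QuotientGroup.mk' _ ⟨c, hc'⟩ * QuotientGroup.mk' _ ⟨z, hz'⟩ := by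
        rw [← map_mul]
        refine (QuotientGroup.eq).2 ?_
        rw [mem_subgroupOf]
        show x⁻¹ * (c * z) ∈ lft 2 π V
        have h3 : x = c * (x2 * z) := by rw [← hw]; group
        have h4 : x⁻¹ * (c * z) = x2⁻¹ := by
          have h5 := hπ.comm hz x2⁻¹
          calc x⁻¹ * (c * z) = z⁻¹ * (x2⁻¹ * z) := by rw [h3]; group
            _ = x2⁻¹ := by rw [← h5]; group
        rw [h4]
        exact inv_mem hx2
      rw [h2]
      exact mul_mem hc2 hz2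
  -- the identification
  let e : Y0 ≃* (S ⧸ center S) :=
    ((QuotientGroup.quotientMulEquivOfEq hσk.symm).trans (QuotientGroup.quotientKerEquivOfSurjective σ0 hσs)).symm
  have hσe : PCE (e.toMonoidHom.comp σ0) := hσ.congr e
  have hρe : PCE (e.toMonoidHom.comp ρ0) := hρ.congr e
  have hkσ : (e.toMonoidHom.comp σ0).ker = σ0.ker := by
    ext x
    rw [MonoidHom.mem_ker, MonoidHom.mem_ker]
    show e (σ0 x) = 1 ↔ _
    rw [map_eq_one_iff _ e.injective]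
  obtain ⟨θ, hθs, hθ⟩ := exists_over hσe hρe hA (m := m) (k := 3) (by rw [hkσ, hσk, hm]) hm3 (by
    intro x hx
    have h1 : ρ0 x = 1 := (map_eq_one_iff _ e.injective).1 hx
    obtain ⟨z, hz, -, h2, rfl⟩ := hker x h1
    rw [← map_pow]
    have h3 : (⟨z, hz⟩ : P.comap π) ^ 3 = 1 := Subtype.ext h2
    rw [h3, map_one])
  have hθ' : ∀ x, ρ0 (θ x) = σ0 x := fun x => e.injective (hθ x)
  -- the element
  have hgP : g ∈ P.comap π := by
    rw [mem_comap, hg]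
    exact P.mul_mem (hVP hv) (hfP h)
  have hgσ : ρ0 (QuotientGroup.mk' _ ⟨g, hgP⟩) = σ0 h := by
    rw [hρ0]
    refine (QuotientGroup.eq).2 ?_
    rw [mem_subgroupOf]
    show (π g)⁻¹ * f h ∈ V
    rw [hg]
    have h1 : (v * f h)⁻¹ * f h = (f h)⁻¹ * v⁻¹ * ((f h)⁻¹)⁻¹ := by group
    rw [h1]
    exact (mem_normalizer_iff.1 (hN (P.inv_mem (hfP h))) _).1 (V.inv_mem hv)
  obtain ⟨s, hs⟩ := hθs ((θ h)⁻¹ * QuotientGroup.mk' _ ⟨g, hgP⟩)
  have hsc : s ∈ center S := by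
    rw [← hσk, MonoidHom.mem_ker, ← hθ' s, hs, map_mul, map_inv, hθ', hgσ, inv_mul_cancel]
  refine ⟨s, hsc, ?_⟩
  intro a b a' b' hab ha hb
  have haP : a' ∈ P.comap π := by rw [mem_comap, ha]; exact hfP a
  have hbP : b' ∈ P.comap π := by rw [mem_comap, hb]; exact hfP b
  have key : ∀ (a : S) (a' : L) (haP : a' ∈ P.comap π), π a' = f a →
      ∃ z : E, (∀ w, z * w = w * z) ∧ QuotientGroup.mk' _ (⟨a', haP⟩ : P.comap π) = θ a * z := by
    intro a a' haP ha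
    refine ⟨(θ a)⁻¹ * QuotientGroup.mk' _ (⟨a', haP⟩ : P.comap π), ?_, by rw [mul_inv_cancel_left]⟩
    intro w
    refine (mem_center_iff.1 (hρc ?_) w).symm
    have h1 : (⟨π a', haP⟩ : P) = fP a := Subtype.ext ha
    rw [MonoidHom.mem_ker, map_mul, map_inv, hθ', hρ0, h1]
    exact inv_mul_cancel _
  obtain ⟨z1, hz1, h1⟩ := key a a' haP ha
  obtain ⟨z2, hz2, h2⟩ := key b b' hbP hb
  have h3 : QuotientGroup.mk' ((lft 2 π V).subgroupOf (P.comap π)) (⟨a', haP⟩ * ⟨b', hbP⟩ * (⟨a', haP⟩ : P.comap π)⁻¹ *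
      (⟨b', hbP⟩ : P.comap π)⁻¹) = QuotientGroup.mk' _ ⟨g, hgP⟩ := by
    rw [map_mul, map_mul, map_mul, map_inv, map_inv, h1, h2, comm_mul hz1 hz2, ← map_inv, ← map_inv, ← map_mul,
      ← map_mul, ← map_mul, ← hab, map_mul, hs, mul_inv_cancel_left]
  have h4 := (QuotientGroup.eq).1 h3
  rw [mem_subgroupOf] at h4
  have h5 : (a' * b' * a'⁻¹ * b'⁻¹)⁻¹ * g ∈ lft 2 π V := h4
  have h6 : g * (a' * b' * a'⁻¹ * b'⁻¹)⁻¹ =
      (a' * b' * a'⁻¹ * b'⁻¹) * ((a' * b' * a'⁻¹ * b'⁻¹)⁻¹ * g) * (a' * b' * a'⁻¹ * b'⁻¹)⁻¹ := by group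
  rw [h6]
  have hcP : a' * b' * a'⁻¹ * b'⁻¹ ∈ P.comap π :=
    mul_mem (mul_mem (mul_mem haP hbP) (inv_mem haP)) (inv_mem hbP)
  exact hNn.conj_mem ⟨_, mul_mem (inv_mem hcP) hgP⟩ (by rw [mem_subgroupOf]; exact h5) ⟨_, hcP⟩

end main

open CoxeterSystem Cfsg.Agent.ChevalleyStructure.CoxeterGeom Cfsg.Agent.Tits.Roots Cfsg.Agent.Tits.Core
  Cfsg.Agent.Nodes Cfsg.Agent.Nodes.Reps Cfsg.Agent.Nodes.BNOf Cfsg.Agent.Nodes.RGDLib Cfsg.Agent.Nodes.Bruhat
  Cfsg.Agent.Nodes.OppDec Cfsg.Agent.Nodes.LeviDec Cfsg.Agent.Nodes.StabComb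
open Cfsg.Lie
open Cfsg.Agent.H231.QF

section twisted

variable {F : Type u} [Field F] [Fintype F] (hF : Fintype.card F = 4) {φ : F →+* F} (hφ : ∀ t, φ t = t ^ 2)

include hF in
theorem charP_two : CharP F 2 := by
  obtain ⟨p, hp⟩ := CharP.exists F
  have hpp : p.Prime := CharP.char_is_prime F p
  have := Fact.mk hpp
  obtain ⟨n, -, hn⟩ := FiniteField.card F p
  have h1 : p ∣ 2 ^ 2 := by
    rw [show (2 : ℕ) ^ 2 = 4 by norm_num, ← hF, hn]
    exact dvd_pow_self p n.2.ne'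
  have h2 : p = 2 := (Nat.prime_dvd_prime_iff_eq hpp Nat.prime_two).1 (hpp.dvd_of_dvd_pow h1)
  rwa [h2] at hp

include hF hφ in
/-- the structure of the parabolic subgroup -/
theorem parab (J : Set (Fin 4)) :
    P φ J ≤ normalizer (V φ J : Set (KK F)) ∧ (∀ g ∈ P φ J, ∃ l ∈ Lv φ J, ∃ v ∈ V φ J, g = l * v) ∧
      (∀ x ∈ Lv φ J, x ∈ V φ J → x = 1) ∧ IsPGroup 2 (V φ J) := by
  have := charP_two hF
  have := Fact.mk Nat.prime_two
  have hqq : ∀ t : F, (t ^ 2) ^ 2 = t := by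
    intro t
    rw [← pow_mul, show 2 * 2 = Fintype.card F by rw [hF]]
    exact FiniteField.pow_card t
  have R := RGDTwE6.rgd cs hφ hqq 2
  have hW : Finite CoxeterMatrix.F₄.Group := RGDFold.finite_W (hp := RGDTwE6.hp) cs RGDTwE6.isCartan RGDTwE6.foldData
  refine ⟨PJ_le_normalizer_VJ R J, fun g hg => (mem_PJ R).1 hg, fun x hx hx' => ?_, ?_⟩
  · have h1 := LJ_inf_VJ R J
    have h2 : x ∈ LJ cs RGDTwE6.isCartan (RGDTwE6.T F 2) (X φ) J ⊓ VJ cs RGDTwE6.isCartan (X φ) J := ⟨hx, hx'⟩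
    rw [h1] at h2
    exact h2
  · exact R.isPGroup_Upos.to_le (VJ_le_U J)

include hF hφ in
/-- **MATCH3** -/
theorem match3 {L : Type v} [Group L] [Finite L] {π : L →* KK F} (hπ : PCE π) (hk : Nat.card π.ker = 12)
    (hperf : ⁅P φ j1, P φ j1⁆ = P φ j1)
    (hz3 : ∀ z : L, π z = 1 → z ^ 3 = 1 → z ∈ ⁅(P φ j1).comap π, (P φ j1).comap π⁆)
    {f : SU 6 F 2 →* KK F} (hf : f.range = Lv φ j1) (hkf : f.ker = center (SU 6 F 2)) (g : L) {v : KK F}
    (hv : v ∈ V φ j1) (h : SU 6 F 2) (hg : π g = v * f h) :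
    ∃ s ∈ center (SU 6 F 2), ∀ (a b : SU 6 F 2) (a' b' : L), h * s = a * b * a⁻¹ * b⁻¹ → π a' = f a → π b' = f b →
      g * (a' * b' * a'⁻¹ * b'⁻¹)⁻¹ ∈ lft 2 π (V φ j1) := by
  obtain ⟨h1, h2, h3, h4⟩ := parab hF hφ j1
  have hS : commutator (SU 6 F 2) = ⊤ :=
    LieClassical.HermPerfect.commutator_SU_eq_top hF (by norm_num) (by norm_num)
  refine match_abs hπ hk VJ_le_PJ LJ_le_PJ h1 h2 h3 h4 hperf.ge hz3 hf hkf hS (Cfsg.Agent.S2091.result hF) (m := 4) ?_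
    (by norm_num) g hv h hg
  rw [Cfsg.Agent.S0279.result (q := 2) (by rw [hF]; norm_num) 6 (by norm_num),
    Nat.card_congr (Multiplicative.toAdd (α := ZMod 3 × ZMod 2 × ZMod 2)), Nat.card_prod, Nat.card_prod,
    Nat.card_zmod, Nat.card_zmod]
  norm_num

omit [Fintype F] in
/-- the second form of the hypothesis -/
theorem z3_of {L : Type v} [Group L] {π : L →* KK F}
    (hz3 : ∀ z : L, π z = 1 → z ^ 3 = 1 → z ∈ ⁅(Lv φ j1).comap π, (Lv φ j1).comap π⁆) (z : L) (h1 : π z = 1)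
    (h3 : z ^ 3 = 1) : z ∈ ⁅(P φ j1).comap π, (P φ j1).comap π⁆ :=
  commutator_mono (comap_mono LJ_le_PJ) (comap_mono LJ_le_PJ) (hz3 z h1 h3)

end twisted

end Cfsg.Agent.H434.QF
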